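import Mathlib.Data.Multiset.Basic
import Mathlib.Algebra.BigOperators.Group.Multiset.Basic
import Mathlib.Tactic

/-!
# The largest product of parts of a given sum

`maxProd n` is the largest product of natural numbers of sum `n`, `maxProdNoTwo n` the largest one with no
part equal to `2`; for the latter the optimal multiset `bestParts n` is unique once `3 ≤ n`.
-/

namespace Cfsg.Agent.H63

/-- The largest product of natural numbers with sum `n`. -/
def maxProd : ℕ → ℕ
  | 0 => 1
  | 1 => 1
  | 2 => 2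
  | 3 => 3
  | 4 => 4
  | n + 5 => 3 * maxProd (n + 2)

/-- The parts (none equal to `2`) of largest product with sum `n`. -/
def bestParts : ℕ → Multiset ℕ
  | 0 => 0
  | 1 => {1}
  | 2 => {1, 1}
  | 3 => {3}
  | 4 => {4}
  | 5 => {5}
  | 6 => {3, 3}
  | 7 => {3, 4}
  | 8 => {4, 4}
  | n + 9 => 3 ::ₘ bestParts (n + 6)

/-- The largest product of natural numbers different from `2` with sum `n`. -/
def maxProdNoTwo (n : ℕ) : ℕ := (bestParts n).prod

theorem maxProd_add_three : ∀ {n : ℕ}, 2 ≤ n → maxProd (n + 3) = 3 * maxProd n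
  | 0, h => absurd h (by omega)
  | 1, h => absurd h (by omega)
  | n + 2, _ => by rw [show n + 2 + 3 = n + 5 from rfl, maxProd]

theorem maxProd_pos : ∀ n, 0 < maxProd n
  | 0 => by decide
  | 1 => by decide
  | 2 => by decide
  | 3 => by decide
  | 4 => by decide
  | n + 5 => by rw [maxProd]; have := maxProd_pos (n + 2); omega

theorem maxProd_step_small : ∀ s, maxProd s ≤ maxProd (1 + s) ∧ 2 * maxProd s ≤ maxProd (2 + s) ∧
    3 * maxProd s ≤ maxProd (3 + s) ∧ 4 * maxProd s ≤ maxProd (4 + s)
  | 0 => by decide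
  | 1 => by decide
  | 2 => by decide
  | 3 => by decide
  | 4 => by decide
  | s + 5 => by
    have ih := maxProd_step_small (s + 2)
    have e : ∀ d, maxProd (d + (s + 5)) = 3 * maxProd (d + (s + 2)) := fun d => by
      rw [show d + (s + 5) = d + (s + 2) + 3 by omega, maxProd_add_three (by omega)]
    rw [e, e, e, e, maxProd]
    omega

theorem mul_maxProd_le : ∀ m s, m * maxProd s ≤ maxProd (m + s)
  | 0, s => by simp
  | 1, s => by simpa using (maxProd_step_small s).1
  | 2, s => (maxProd_step_small s).2.1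
  | 3, s => (maxProd_step_small s).2.2.1
  | 4, s => (maxProd_step_small s).2.2.2
  | m + 5, s => by
    have h1 := mul_maxProd_le (m + 2) s
    have h2 := (maxProd_step_small (m + 2 + s)).2.2.1
    rw [show 3 + (m + 2 + s) = m + 5 + s by omega] at h2
    calc (m + 5) * maxProd s ≤ 3 * ((m + 2) * maxProd s) := by
          rw [← mul_assoc]; exact Nat.mul_le_mul_right _ (by omega)
      _ ≤ 3 * maxProd (m + 2 + s) := Nat.mul_le_mul_left _ h1
      _ ≤ maxProd (m + 5 + s) := h2

/-- A product of natural numbers is at most `maxProd` of their sum. -/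
theorem prod_le_maxProd (M : Multiset ℕ) : M.prod ≤ maxProd M.sum := by
  induction M using Multiset.induction with
  | empty => simp [maxProd]
  | cons m M ih =>
    rw [Multiset.prod_cons, Multiset.sum_cons]
    exact (Nat.mul_le_mul_left _ ih).trans (mul_maxProd_le _ _)

theorem maxProd_three_mul : ∀ k, 1 ≤ k → maxProd (3 * k) = 3 ^ k
  | 0, h => absurd h (by omega)
  | 1, _ => rfl
  | k + 2, _ => by
    rw [show 3 * (k + 2) = 3 * (k + 1) + 3 by omega, maxProd_add_three (by omega),
      maxProd_three_mul (k + 1) (by omega), pow_succ' 3 (k + 1)]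

theorem maxProd_three_mul_add_one : ∀ k, 1 ≤ k → maxProd (3 * k + 1) = 4 * 3 ^ (k - 1)
  | 0, h => absurd h (by omega)
  | 1, _ => rfl
  | k + 2, _ => by
    rw [show 3 * (k + 2) + 1 = 3 * (k + 1) + 1 + 3 by omega, maxProd_add_three (by omega),
      maxProd_three_mul_add_one (k + 1) (by omega), show k + 2 - 1 = k + 1 from rfl,
      show k + 1 - 1 = k from rfl, pow_succ']
    ring

theorem maxProd_three_mul_add_two : ∀ k, maxProd (3 * k + 2) = 2 * 3 ^ k
  | 0 => rfl
  | k + 1 => by
    rw [show 3 * (k + 1) + 2 = 3 * k + 2 + 3 by omega, maxProd_add_three (by omega),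
      maxProd_three_mul_add_two k, pow_succ']
    ring

theorem maxProdNoTwo_add_nine (n : ℕ) : maxProdNoTwo (n + 9) = 3 * maxProdNoTwo (n + 6) := by
  simp [maxProdNoTwo, bestParts]

theorem maxProdNoTwo_pos : ∀ n, 0 < maxProdNoTwo n
  | 0 => by decide
  | 1 => by decide
  | 2 => by decide
  | 3 => by decide
  | 4 => by decide
  | 5 => by decide
  | 6 => by decide
  | 7 => by decide
  | 8 => by decide
  | n + 9 => by rw [maxProdNoTwo_add_nine]; have := maxProdNoTwo_pos (n + 6); omega

theorem maxProdNoTwo_add_three {n : ℕ} (h : 6 ≤ n) : maxProdNoTwo (n + 3) = 3 * maxProdNoTwo n := by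
  obtain ⟨j, rfl⟩ := Nat.exists_eq_add_of_le h
  rw [show 6 + j + 3 = j + 9 by omega, maxProdNoTwo_add_nine, add_comm j 6]

theorem bestParts_add_three {n : ℕ} (h : 6 ≤ n) : bestParts (n + 3) = 3 ::ₘ bestParts n := by
  obtain ⟨j, rfl⟩ := Nat.exists_eq_add_of_le h
  rw [show 6 + j + 3 = j + 9 by omega, bestParts, add_comm j 6]

theorem maxProdNoTwo_one_step : ∀ s, maxProdNoTwo s ≤ maxProdNoTwo (1 + s) ∧
    (maxProdNoTwo s = maxProdNoTwo (1 + s) → s < 2)
  | 0 => by decide
  | 1 => by decide
  | 2 => by decide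
  | 3 => by decide
  | 4 => by decide
  | 5 => by decide
  | 6 => by decide
  | 7 => by decide
  | 8 => by decide
  | s + 9 => by
    have ih := maxProdNoTwo_one_step (s + 6)
    rw [show 1 + (s + 9) = 1 + (s + 6) + 3 by omega, maxProdNoTwo_add_three (n := 1 + (s + 6)) (by omega),
      maxProdNoTwo_add_nine]
    omega

theorem maxProdNoTwo_five_step : ∀ s, 5 * maxProdNoTwo s ≤ maxProdNoTwo (5 + s) ∧
    (5 * maxProdNoTwo s = maxProdNoTwo (5 + s) → s = 0)
  | 0 => by decide
  | 1 => by decide
  | 2 => by decide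
  | 3 => by decide
  | 4 => by decide
  | 5 => by decide
  | 6 => by decide
  | 7 => by decide
  | 8 => by decide
  | s + 9 => by
    have ih := maxProdNoTwo_five_step (s + 6)
    rw [show 5 + (s + 9) = 5 + (s + 6) + 3 by omega, maxProdNoTwo_add_three (n := 5 + (s + 6)) (by omega),
      maxProdNoTwo_add_nine]
    omega

theorem maxProdNoTwo_three_four_step (d : ℕ) (hd : d = 3 ∨ d = 4) : ∀ s,
    d * maxProdNoTwo s ≤ maxProdNoTwo (d + s) ∧
    (d * maxProdNoTwo s = maxProdNoTwo (d + s) →
      (s = 0 ∨ 3 ≤ s) ∧ bestParts (d + s) = d ::ₘ bestParts s)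
  | 0 => by rcases hd with rfl | rfl <;> decide
  | 1 => by rcases hd with rfl | rfl <;> decide
  | 2 => by rcases hd with rfl | rfl <;> decide
  | 3 => by rcases hd with rfl | rfl <;> decide
  | 4 => by rcases hd with rfl | rfl <;> decide
  | 5 => by rcases hd with rfl | rfl <;> decide
  | 6 => by rcases hd with rfl | rfl <;> decide
  | 7 => by rcases hd with rfl | rfl <;> decide
  | 8 => by rcases hd with rfl | rfl <;> decide
  | s + 9 => by
    have ih := maxProdNoTwo_three_four_step d hd (s + 6)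
    rw [show d + (s + 9) = d + (s + 6) + 3 by omega, maxProdNoTwo_add_three (n := d + (s + 6)) (by omega),
      maxProdNoTwo_add_nine, Nat.mul_left_comm, bestParts_add_three (by omega)]
    refine ⟨Nat.mul_le_mul_left 3 ih.1, fun h => ⟨Or.inr (by omega), ?_⟩⟩
    rw [(ih.2 (Nat.eq_of_mul_eq_mul_left (by norm_num) h)).2, Multiset.cons_swap, bestParts]

theorem mul_maxProdNoTwo_le : ∀ m s, m ≠ 2 → m * maxProdNoTwo s ≤ maxProdNoTwo (m + s) ∧
    (6 ≤ m → m * maxProdNoTwo s < maxProdNoTwo (m + s))
  | 0, s, _ => ⟨by simp, fun h => absurd h (by omega)⟩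
  | 1, s, _ => ⟨by simpa using (maxProdNoTwo_one_step s).1, fun h => absurd h (by omega)⟩
  | 2, _, h => absurd rfl h
  | 3, s, _ => ⟨(maxProdNoTwo_three_four_step 3 (Or.inl rfl) s).1, fun h => absurd h (by omega)⟩
  | 4, s, _ => ⟨(maxProdNoTwo_three_four_step 4 (Or.inr rfl) s).1, fun h => absurd h (by omega)⟩
  | 5, s, _ => ⟨(maxProdNoTwo_five_step s).1, fun h => absurd h (by omega)⟩
  | m + 6, s, _ => by
    have h1 := (mul_maxProdNoTwo_le (m + 3) s (by omega)).1
    have h2 := (maxProdNoTwo_three_four_step 3 (Or.inl rfl) (m + 3 + s)).1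
    rw [show 3 + (m + 3 + s) = m + 6 + s by omega] at h2
    have h3 : (m + 6) * maxProdNoTwo s < maxProdNoTwo (m + 6 + s) := by
      calc (m + 6) * maxProdNoTwo s < 3 * ((m + 3) * maxProdNoTwo s) := by
            rw [← mul_assoc]; exact Nat.mul_lt_mul_of_pos_right (by omega) (maxProdNoTwo_pos s)
        _ ≤ 3 * maxProdNoTwo (m + 3 + s) := Nat.mul_le_mul_left _ h1
        _ ≤ maxProdNoTwo (m + 6 + s) := h2
    exact ⟨h3.le, fun _ => h3⟩

/-- A product of parts different from `2` is at most `maxProdNoTwo`, with a unique optimum. -/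
theorem prod_le_maxProdNoTwo (M : Multiset ℕ) (hM : 2 ∉ M) :
    M.prod ≤ maxProdNoTwo M.sum ∧
      (M.prod = maxProdNoTwo M.sum → 3 ≤ M.sum → M = bestParts M.sum) := by
  induction M using Multiset.induction with
  | empty => simp [maxProdNoTwo, bestParts]
  | cons m M ih =>
    obtain ⟨hm, hM'⟩ : ¬ 2 = m ∧ 2 ∉ M := by simpa [Multiset.mem_cons, not_or] using hM
    obtain ⟨ih1, ih2⟩ := ih hM'
    rw [Multiset.prod_cons, Multiset.sum_cons]
    have h1 := Nat.mul_le_mul_left m ih1
    obtain ⟨h2, h2'⟩ := mul_maxProdNoTwo_le m M.sum (Ne.symm hm)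
    refine ⟨h1.trans h2, fun heq h3 => ?_⟩
    have hm0 : 0 < m := by
      rcases Nat.eq_zero_or_pos m with rfl | h
      · rw [zero_mul] at heq; have := maxProdNoTwo_pos (0 + M.sum); omega
      · exact h
    have e1 : m * M.prod = m * maxProdNoTwo M.sum := le_antisymm h1 (heq ▸ h2)
    have e2 : m * maxProdNoTwo M.sum = maxProdNoTwo (m + M.sum) := e1 ▸ heq
    have hp : M.prod = maxProdNoTwo M.sum := Nat.eq_of_mul_eq_mul_left hm0 e1
    have hMe : (M.sum = 0 ∨ 3 ≤ M.sum) → M = bestParts M.sum := by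
      rintro (h0 | h0)
      · have hz : ∀ x ∈ M, x = 0 := fun x hx => by
          have := Multiset.le_sum_of_mem hx; omega
        rcases M.empty_or_exists_mem with hM0 | ⟨x, hx⟩
        · subst hM0; rfl
        · exfalso
          have : M.prod = 0 := Multiset.prod_eq_zero (hz x hx ▸ hx)
          have := maxProdNoTwo_pos M.sum; omega
      · exact ih2 hp h0
    have hmlt : m < 6 := by
      by_contra hge
      have := h2' (by omega)
      omega
    interval_cases m
    · have := (maxProdNoTwo_one_step M.sum).2 (by simpa using e2)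
      omega
    · exact absurd rfl hm
    · obtain ⟨hs, he⟩ := (maxProdNoTwo_three_four_step 3 (Or.inl rfl) M.sum).2 e2
      rw [he, ← hMe hs]
    · obtain ⟨hs, he⟩ := (maxProdNoTwo_three_four_step 4 (Or.inr rfl) M.sum).2 e2
      rw [he, ← hMe hs]
    · have hs := (maxProdNoTwo_five_step M.sum).2 e2
      rw [hMe (Or.inl hs), hs]; rfl

theorem maxProd_lt_two_mul : ∀ n, 3 ≤ n → maxProd n < 2 * maxProdNoTwo n
  | 0, h => absurd h (by omega)
  | 1, h => absurd h (by omega)
  | 2, h => absurd h (by omega)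
  | 3, _ => by decide
  | 4, _ => by decide
  | 5, _ => by decide
  | 6, _ => by decide
  | 7, _ => by decide
  | 8, _ => by decide
  | n + 9, _ => by
    have ih := maxProd_lt_two_mul (n + 6) (by omega)
    rw [maxProdNoTwo_add_nine, show n + 9 = n + 6 + 3 from rfl, maxProd_add_three (by omega)]
    omega

theorem bestParts_part : ∀ n, 3 ≤ n → ∀ m ∈ bestParts n, m = 3 ∨ m = 4 ∨ m = 5
  | 0, h => absurd h (by omega)
  | 1, h => absurd h (by omega)
  | 2, h => absurd h (by omega)
  | 3, _ => by decide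
  | 4, _ => by decide
  | 5, _ => by decide
  | 6, _ => by decide
  | 7, _ => by decide
  | 8, _ => by decide
  | n + 9, _ => by
    intro m hm
    rw [bestParts, Multiset.mem_cons] at hm
    rcases hm with rfl | hm
    · exact Or.inl rfl
    · exact bestParts_part (n + 6) (by omega) m hm

theorem maxProdNoTwo_three_mul : ∀ k, 2 ≤ k → maxProdNoTwo (3 * k) = 3 ^ k
  | 0, h => absurd h (by omega)
  | 1, h => absurd h (by omega)
  | 2, _ => by decide
  | k + 3, _ => by
    rw [show 3 * (k + 3) = 3 * (k + 2) + 3 by omega, maxProdNoTwo_add_three (by omega),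
      maxProdNoTwo_three_mul (k + 2) (by omega), pow_succ' 3 (k + 2)]

theorem maxProdNoTwo_three_mul_add_one : ∀ k, 2 ≤ k → maxProdNoTwo (3 * k + 1) = 4 * 3 ^ (k - 1)
  | 0, h => absurd h (by omega)
  | 1, h => absurd h (by omega)
  | 2, _ => by decide
  | k + 3, _ => by
    rw [show 3 * (k + 3) + 1 = 3 * (k + 2) + 1 + 3 by omega, maxProdNoTwo_add_three (by omega),
      maxProdNoTwo_three_mul_add_one (k + 2) (by omega), show k + 3 - 1 = k + 2 from rfl,
      show k + 2 - 1 = k + 1 from rfl, pow_succ' 3 (k + 1)]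
    ring

theorem maxProdNoTwo_three_mul_add_two : ∀ k, 2 ≤ k → maxProdNoTwo (3 * k + 2) = 16 * 3 ^ (k - 2)
  | 0, h => absurd h (by omega)
  | 1, h => absurd h (by omega)
  | 2, _ => by decide
  | k + 3, _ => by
    rw [show 3 * (k + 3) + 2 = 3 * (k + 2) + 2 + 3 by omega, maxProdNoTwo_add_three (by omega),
      maxProdNoTwo_three_mul_add_two (k + 2) (by omega), show k + 3 - 2 = k + 1 from rfl,
      show k + 2 - 2 = k from rfl, pow_succ']
    ring

end Cfsg.Agent.H63
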