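import Mathlib
import Cfsg.Agent.H63.PartProduct

/-!
# Largest abelian subgroups of symmetric and alternating groups
-/

set_option linter.unusedSectionVars false

namespace Cfsg.Agent.H63

open Equiv MulAction

variable {α : Type*} [Fintype α] [DecidableEq α]

/-- Orbit space of a permutation group. -/
abbrev Orb (A : Subgroup (Perm α)) : Type _ := orbitRel.Quotient ↥A α

/-- The regular group of `A` on the orbit `o`. -/
abbrev OrbGrp (A : Subgroup (Perm α)) (o : Orb A) : Type _ := ↥A ⧸ stabilizer ↥A o.out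

/-- The inclusion of an orbit (as the regular set of `A`) into the points. -/
noncomputable def orbPt (A : Subgroup (Perm α)) (o : Orb A) : OrbGrp A o ↪ α :=
  ⟨ofQuotientStabilizer ↥A o.out, injective_ofQuotientStabilizer ↥A o.out⟩

theorem orbPt_mk (A : Subgroup (Perm α)) (o : Orb A) (a : ↥A) :
    orbPt A o (QuotientGroup.mk a) = (a : Perm α) o.out := rfl

/-- All points, indexed by orbit and regular group. -/
noncomputable def orbEquiv (A : Subgroup (Perm α)) : (Σ o : Orb A, OrbGrp A o) ≃ α :=
  Equiv.ofBijective (fun p => orbPt A p.1 p.2) <| by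
    constructor
    · rintro ⟨o, q⟩ ⟨o', q'⟩ h
      induction q using QuotientGroup.induction_on with | _ a =>
      induction q' using QuotientGroup.induction_on with | _ a' =>
      simp only at h
      have ho : o = o' := by
        rw [← o.out_eq', ← o'.out_eq']
        refine Quotient.sound' (orbitRel_apply.2 ⟨a⁻¹ * a', ?_⟩)
        show (a⁻¹ * a') • o'.out = o.out
        rw [mul_smul, inv_smul_eq_iff]
        exact h.symm
      subst ho
      rw [(orbPt A o).injective h]
    · intro x
      obtain ⟨a, ha⟩ := orbitRel_apply.1 (Quotient.eq''.1 (Quotient.out_eq' (Quotient.mk'' x : Orb A)).symm)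
      exact ⟨⟨Quotient.mk'' x, QuotientGroup.mk a⟩, ha⟩

theorem orbEquiv_mk (A : Subgroup (Perm α)) (o : Orb A) (a : ↥A) :
    orbEquiv A ⟨o, QuotientGroup.mk a⟩ = (a : Perm α) o.out := rfl

/-- The multiset of orbit sizes of `A`. -/
noncomputable def orbitSizes (A : Subgroup (Perm α)) : Multiset ℕ :=
  letI := Fintype.ofFinite (Orb A)
  (Finset.univ : Finset (Orb A)).val.map fun o => Nat.card (OrbGrp A o)

theorem orbitSizes_sum (A : Subgroup (Perm α)) : (orbitSizes A).sum = Fintype.card α := by
  classical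
  haveI := Fintype.ofFinite (Orb A)
  rw [← Nat.card_eq_fintype_card (α := α), ← Nat.card_congr (orbEquiv A), Nat.card_sigma,
    orbitSizes, Finset.sum_eq_multiset_sum]
  congr! 4

theorem orbitSizes_prod (A : Subgroup (Perm α)) :
    (orbitSizes A).prod = Nat.card (∀ o : Orb A, OrbGrp A o) := by
  classical
  haveI := Fintype.ofFinite (Orb A)
  rw [Nat.card_pi, orbitSizes, Finset.prod_eq_multiset_prod]
  congr! 4

theorem mem_orbitSizes {A : Subgroup (Perm α)} {m : ℕ} :
    m ∈ orbitSizes A ↔ ∃ o : Orb A, Nat.card (OrbGrp A o) = m := by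
  simp [orbitSizes]

variable (A : Subgroup (Perm α)) [hA : IsMulCommutative ↥A]

/-- In an abelian group every stabiliser is normal. -/
instance orbStabNormal (o : Orb A) : (stabilizer ↥A o.out).Normal :=
  ⟨fun n hn g => by rwa [mul_comm' g n, mul_assoc, mul_inv_cancel, mul_one]⟩

/-- An abelian permutation group maps into the product of its regular orbit groups. -/
noncomputable def orbHom : ↥A →* (∀ o : Orb A, OrbGrp A o) :=
  MonoidHom.pi fun o => QuotientGroup.mk' (stabilizer ↥A o.out)

theorem orbHom_apply (a : ↥A) (o : Orb A) : orbHom A a o = QuotientGroup.mk a := rfl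

theorem smul_orbPt (a : ↥A) (o : Orb A) (q : OrbGrp A o) :
    (a : Perm α) (orbPt A o q) = orbPt A o (orbHom A a o * q) := by
  induction q using QuotientGroup.induction_on with | _ b =>
  rw [orbHom_apply, ← QuotientGroup.mk_mul, orbPt_mk, orbPt_mk]
  rfl

theorem orbHom_injective : Function.Injective (orbHom A) := by
  intro a b h
  apply Subtype.ext
  ext x
  obtain ⟨⟨o, q⟩, rfl⟩ := (orbEquiv A).surjective x
  show (a : Perm α) (orbPt A o q) = (b : Perm α) (orbPt A o q)
  rw [smul_orbPt, smul_orbPt, h]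

/-- The order of an abelian permutation group divides the product of its orbit sizes. -/
theorem card_dvd_prod_orbitSizes : Nat.card ↥A ∣ (orbitSizes A).prod := by
  rw [orbitSizes_prod]
  exact Subgroup.card_dvd_of_injective _ (orbHom_injective A)

/-- The order of an abelian permutation group of degree `n` is at most `maxProd n`. -/
theorem card_le_maxProd : Nat.card ↥A ≤ maxProd (Fintype.card α) := by
  have hpos : 0 < (orbitSizes A).prod := by rw [orbitSizes_prod]; exact Nat.card_pos
  exact (Nat.le_of_dvd hpos (card_dvd_prod_orbitSizes A)).trans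
    (orbitSizes_sum A ▸ prod_le_maxProd _)

/-- `A` is the full product of its regular orbit groups. -/
def IsFull : Prop := Function.Surjective (orbHom A)

theorem isFull_iff : IsFull A ↔ Nat.card ↥A = (orbitSizes A).prod := by
  rw [orbitSizes_prod]
  exact ⟨fun h => Nat.card_eq_of_bijective _ ⟨orbHom_injective A, h⟩,
    fun h => ((Nat.bijective_iff_injective_and_card _).2 ⟨orbHom_injective A, h⟩).2⟩

theorem viaEmbedding_mem {A : Subgroup (Perm α)} [IsMulCommutative ↥A] (hf : IsFull A) (o : Orb A)
    (q : OrbGrp A o) : Equiv.Perm.viaEmbedding (Equiv.mulLeft q) (orbPt A o) ∈ A := by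
  classical
  obtain ⟨a, ha⟩ := hf (Pi.mulSingle o q)
  have : Equiv.Perm.viaEmbedding (Equiv.mulLeft q) (orbPt A o) = (a : Perm α) := by
    ext x
    obtain ⟨⟨o', r⟩, rfl⟩ := (orbEquiv A).surjective x
    show Equiv.Perm.viaEmbedding (Equiv.mulLeft q) (orbPt A o) (orbPt A o' r) =
      (a : Perm α) (orbPt A o' r)
    rw [smul_orbPt, ha]
    by_cases ho : o' = o
    · subst ho
      rw [Equiv.Perm.viaEmbedding_apply, Pi.mulSingle_eq_same]
      rfl
    · rw [Pi.mulSingle_eq_of_ne ho, one_mul, Equiv.Perm.viaEmbedding_apply_of_notMem]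
      rintro ⟨r', hr'⟩
      have := (orbEquiv A).injective (a₁ := ⟨o, r'⟩) (a₂ := ⟨o', r⟩) hr'
      exact ho (Sigma.mk.inj this).1.symm
  rw [this]
  exact a.2

theorem sign_viaEmbedding {β : Type*} [Fintype β] [DecidableEq β] (e : Perm β) (ι : β ↪ α) :
    Equiv.Perm.sign (Equiv.Perm.viaEmbedding e ι) = Equiv.Perm.sign e := by
  rw [Equiv.Perm.viaEmbedding]
  convert! Equiv.Perm.sign_extendDomain e _

/-- A full abelian group of even permutations has only even regular translations. -/
theorem sign_mulLeft_orbGrp {A : Subgroup (Perm α)} [IsMulCommutative ↥A] (hf : IsFull A)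
    (hAlt : A ≤ alternatingGroup α) (o : Orb A) [Fintype (OrbGrp A o)] [DecidableEq (OrbGrp A o)]
    (q : OrbGrp A o) : Equiv.Perm.sign (Equiv.mulLeft q) = 1 := by
  rw [← sign_viaEmbedding (Equiv.mulLeft q) (orbPt A o)]
  exact Equiv.Perm.mem_alternatingGroup.1 (hAlt (viaEmbedding_mem hf o q))

theorem two_notMem_orbitSizes {A : Subgroup (Perm α)} [IsMulCommutative ↥A] (hf : IsFull A)
    (hAlt : A ≤ alternatingGroup α) : 2 ∉ orbitSizes A := by
  classical
  intro h
  obtain ⟨o, ho⟩ := mem_orbitSizes.1 h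
  haveI := Fintype.ofFinite (OrbGrp A o)
  rw [Nat.card_eq_fintype_card] at ho
  haveI : Nontrivial (OrbGrp A o) := Fintype.one_lt_card_iff_nontrivial.1 (by omega)
  obtain ⟨q, hq⟩ := exists_ne (1 : OrbGrp A o)
  have h2 : ∀ σ : Perm (Fin 2), Equiv.Perm.sign σ = 1 → σ = 1 := by decide
  let e := Fintype.equivFinOfCardEq ho
  have h1 := h2 (e.permCongr (Equiv.mulLeft q))
    (by rw [Equiv.Perm.sign_permCongr]; exact sign_mulLeft_orbGrp hf hAlt o q)
  have h3 := congrArg (fun σ : Perm (Fin 2) => e.symm (σ (e 1))) h1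
  simp [Equiv.permCongr_apply] at h3
  exact hq h3

/-- An abelian group of even permutations of degree `n ≥ 3` has order at most `maxProdNoTwo n`,
with equality only for a full product with the best orbit sizes. -/
theorem card_le_maxProdNoTwo (hAlt : A ≤ alternatingGroup α) (hn : 3 ≤ Fintype.card α) :
    Nat.card ↥A ≤ maxProdNoTwo (Fintype.card α) ∧
      (Nat.card ↥A = maxProdNoTwo (Fintype.card α) →
        IsFull A ∧ orbitSizes A = bestParts (Fintype.card α)) := by
  by_cases hf : IsFull A
  · have h := prod_le_maxProdNoTwo _ (two_notMem_orbitSizes hf hAlt)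
    rw [orbitSizes_sum, ← (isFull_iff A).1 hf] at h
    exact ⟨h.1, fun he => ⟨hf, h.2 he hn⟩⟩
  · obtain ⟨c, hc⟩ := card_dvd_prod_orbitSizes A
    have hp : 0 < (orbitSizes A).prod := by rw [orbitSizes_prod]; exact Nat.card_pos
    have h1 : (orbitSizes A).prod ≤ maxProd (Fintype.card α) :=
      orbitSizes_sum A ▸ prod_le_maxProd _
    have hc2 : 2 ≤ c := by
      by_contra hlt
      interval_cases c
      · simp [hc] at hp
      · exact hf ((isFull_iff A).2 (by rw [hc, mul_one]))
    have h2 := maxProd_lt_two_mul _ hn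
    have h3 : Nat.card ↥A * 2 ≤ (orbitSizes A).prod := hc ▸ Nat.mul_le_mul_left _ hc2
    exact ⟨by omega, fun he => by omega⟩

/-- An abelian group of perms of degree `n` and order `c` exists, as an injective image. -/
def HasAbelian (even : Prop) (n c : ℕ) : Prop :=
  ∃ A : Subgroup (Perm (Fin n)), IsMulCommutative ↥A ∧ Nat.card ↥A = c ∧
    (even → A ≤ alternatingGroup (Fin n))

theorem hasAbelian_one (even : Prop) (n : ℕ) : HasAbelian even n 1 :=
  ⟨⊥, ⟨⟨fun a b => Subsingleton.elim _ _⟩⟩, Subgroup.card_bot, fun _ => bot_le⟩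

theorem HasAbelian.add {even : Prop} {a b c d : ℕ} (h₁ : HasAbelian even a c)
    (h₂ : HasAbelian even b d) : HasAbelian even (a + b) (c * d) := by
  classical
  obtain ⟨A, hA, hAc, hAe⟩ := h₁
  obtain ⟨B, hB, hBc, hBe⟩ := h₂
  let f : ↥A × ↥B →* Perm (Fin (a + b)) :=
    (finSumFinEquiv.permCongrHom.toMonoidHom.comp (Equiv.Perm.sumCongrHom (Fin a) (Fin b))).comp
      (A.subtype.prodMap B.subtype)
  have hf : Function.Injective f := by
    intro x y h
    have h' := Equiv.Perm.sumCongrHom_injective (finSumFinEquiv.permCongrHom.injective h)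
    exact Prod.ext (Subtype.ext (congrArg Prod.fst h')) (Subtype.ext (congrArg Prod.snd h'))
  refine ⟨f.range, ⟨⟨?_⟩⟩, ?_, fun he => ?_⟩
  · rintro ⟨_, x, rfl⟩ ⟨_, y, rfl⟩
    apply Subtype.ext
    show f x * f y = f y * f x
    have hxy : x * y = y * x := Prod.ext (mul_comm' x.1 y.1) (mul_comm' x.2 y.2)
    rw [← map_mul, ← map_mul, hxy]
  · rw [← Nat.card_congr (MonoidHom.ofInjective hf).toEquiv, Nat.card_prod, hAc, hBc]
  · rintro _ ⟨x, rfl⟩
    rw [Equiv.Perm.mem_alternatingGroup]
    show Equiv.Perm.sign (finSumFinEquiv.permCongr (Equiv.Perm.sumCongr (x.1 : Perm (Fin a)) (x.2 : Perm (Fin b)))) = 1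
    rw [Equiv.Perm.sign_permCongr, Equiv.Perm.sign_sumCongr,
      Equiv.Perm.mem_alternatingGroup.1 (hAe he x.1.2), Equiv.Perm.mem_alternatingGroup.1 (hBe he x.2.2), mul_one]

theorem hasAbelian_zpowers (even : Prop) {n c : ℕ} (σ : Perm (Fin n)) (hσ : orderOf σ = c)
    (hs : even → Equiv.Perm.sign σ = 1) : HasAbelian even n c :=
  ⟨Subgroup.zpowers σ, inferInstance, by rw [Nat.card_zpowers, hσ], fun he =>
    Subgroup.zpowers_le.2 (Equiv.Perm.mem_alternatingGroup.2 (hs he))⟩

theorem hasAbelian_three (even : Prop) : HasAbelian even 3 3 :=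
  hasAbelian_zpowers even (finRotate 3) (orderOf_eq_prime (by decide) (by decide)) fun _ => by decide

theorem hasAbelian_five (even : Prop) : HasAbelian even 5 5 := by
  haveI : Fact (Nat.Prime 5) := ⟨by norm_num⟩
  exact hasAbelian_zpowers even (finRotate 5) (orderOf_eq_prime (by decide) (by decide)) fun _ => by decide

theorem hasAbelian_klein (even : Prop) : HasAbelian even 4 4 := by
  let a : Perm (Fin 4) := Equiv.swap 0 1 * Equiv.swap 2 3
  let b : Perm (Fin 4) := Equiv.swap 0 2 * Equiv.swap 1 3
  let V : Subgroup (Perm (Fin 4)) :=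
    { carrier := {σ | σ = 1 ∨ σ = a ∨ σ = b ∨ σ = a * b}
      one_mem' := Or.inl rfl
      mul_mem' := by
        rintro x y (rfl | rfl | rfl | rfl) (rfl | rfl | rfl | rfl) <;>
          simp only [Set.mem_ofPred_eq] <;> decide
      inv_mem' := by
        rintro x (rfl | rfl | rfl | rfl) <;> simp only [Set.mem_ofPred_eq] <;> decide }
  refine ⟨V, ⟨⟨?_⟩⟩, ?_, fun _ σ hσ => ?_⟩
  · rintro ⟨x, hx⟩ ⟨y, hy⟩
    apply Subtype.ext
    rcases hx with rfl | rfl | rfl | rfl <;> rcases hy with rfl | rfl | rfl | rfl <;>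
      (show (_ : Perm (Fin 4)) * _ = _ * _) <;> decide
  · have : (V : Set (Perm (Fin 4))) = (({1, a, b, a * b} : Finset (Perm (Fin 4))) : Set (Perm (Fin 4))) := by
      ext σ
      simp [V]
    show Nat.card (V : Set (Perm (Fin 4))) = 4
    rw [this, Nat.card_coe_set_eq, Set.ncard_coe_finset]
    decide
  · rw [Equiv.Perm.mem_alternatingGroup]
    rcases hσ with rfl | rfl | rfl | rfl <;> decide

/-- The bound `maxProdNoTwo` is attained in the alternating group. -/
theorem hasAbelian_maxProdNoTwo : ∀ n, HasAbelian True n (maxProdNoTwo n)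
  | 0 => hasAbelian_one _ _
  | 1 => hasAbelian_one _ _
  | 2 => hasAbelian_one _ _
  | 3 => hasAbelian_three _
  | 4 => hasAbelian_klein _
  | 5 => hasAbelian_five _
  | 6 => (hasAbelian_three _).add (hasAbelian_three _)
  | 7 => (hasAbelian_three _).add (hasAbelian_klein _)
  | 8 => (hasAbelian_klein _).add (hasAbelian_klein _)
  | n + 9 => by
    rw [maxProdNoTwo_add_nine, show n + 9 = 3 + (n + 6) by omega]
    exact (hasAbelian_three _).add (hasAbelian_maxProdNoTwo (n + 6))

/-- The bound `maxProd` is attained in the symmetric group. -/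
theorem hasAbelian_maxProd : ∀ n, HasAbelian False n (maxProd n)
  | 0 => hasAbelian_one _ _
  | 1 => hasAbelian_one _ _
  | 2 => hasAbelian_zpowers (c := 2) _ (finRotate 2) (orderOf_eq_prime (by decide) (by decide)) fun h => h.elim
  | 3 => hasAbelian_three _
  | 4 => hasAbelian_klein _
  | n + 5 => by
    rw [maxProd, show n + 5 = 3 + (n + 2) by omega]
    exact (hasAbelian_three _).add (hasAbelian_maxProd (n + 2))

/-- The largest order of an abelian subgroup of the alternating group of degree `n ≥ 3`. -/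
theorem isGreatest_alternating (n : ℕ) (hn : 3 ≤ n) :
    IsGreatest {c : ℕ | ∃ A : Subgroup (alternatingGroup (Fin n)), IsMulCommutative A ∧ Nat.card A = c}
      (maxProdNoTwo n) := by
  refine ⟨?_, ?_⟩
  · obtain ⟨A, hA, hAc, hAe⟩ := hasAbelian_maxProdNoTwo n
    have e := Subgroup.subgroupOfEquivOfLe (hAe trivial)
    exact ⟨A.subgroupOf _, ⟨⟨fun a b => e.injective (by rw [map_mul, map_mul, mul_comm'])⟩⟩,
      (Nat.card_congr e.toEquiv).trans hAc⟩
  · rintro c ⟨A, hA, rfl⟩
    have e := A.equivMapOfInjective (alternatingGroup (Fin n)).subtype Subtype.val_injective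
    haveI : IsMulCommutative ↥(A.map (alternatingGroup (Fin n)).subtype) :=
      ⟨⟨fun a b => e.symm.injective (by rw [map_mul, map_mul, mul_comm'])⟩⟩
    have h := (card_le_maxProdNoTwo (A.map (alternatingGroup (Fin n)).subtype)
      (Subgroup.map_subtype_le A) (by simpa using hn)).1
    rwa [Fintype.card_fin, ← Nat.card_congr e.toEquiv] at h

/-- The largest order of an abelian subgroup of the symmetric group of degree `n`. -/
theorem isGreatest_perm (n : ℕ) :
    IsGreatest {c : ℕ | ∃ A : Subgroup (Perm (Fin n)), IsMulCommutative A ∧ Nat.card A = c}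
      (maxProd n) := by
  refine ⟨?_, ?_⟩
  · obtain ⟨A, hA, hAc, -⟩ := hasAbelian_maxProd n
    exact ⟨A, hA, hAc⟩
  · rintro c ⟨A, hA, rfl⟩
    simpa using card_le_maxProd A

end Cfsg.Agent.H63
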