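import Cfsg.Agent.H63.AbelianPerm

/-!
# Conjugacy of the largest abelian subgroups of alternating groups
-/

set_option linter.unusedSectionVars false

namespace Cfsg.Agent.H63

open Equiv MulAction

variable {α : Type*} [Fintype α] [DecidableEq α]

/-- A group of order four all of whose translations are even is a Klein four group. -/
theorem isKleinFour_of_even {Q : Type*} [Group Q] [Fintype Q] [DecidableEq Q]
    (hQ : Nat.card Q = 4) (h : ∀ q : Q, Equiv.Perm.sign (Equiv.mulLeft q) = 1) : IsKleinFour Q := by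
  have h4 : Fintype.card Q = 4 := by rwa [← Nat.card_eq_fintype_card]
  have hdec : ∀ σ : Perm (Fin 4), Equiv.Perm.sign σ = 1 → (∀ x, σ x ≠ x) → σ * σ = 1 := by decide
  let e := Fintype.equivFinOfCardEq h4
  have hsq : ∀ q : Q, q ^ 2 = 1 := by
    intro q
    by_cases hq : q = 1
    · simp [hq]
    have h1 := hdec (e.permCongr (Equiv.mulLeft q)) (by rw [Equiv.Perm.sign_permCongr]; exact h q)
      (fun x hx => by
        have := congrArg e.symm hx
        simp [Equiv.permCongr_apply] at this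
        exact hq this)
    have h2 := congrArg (fun σ : Perm (Fin 4) => e.symm (σ (e 1))) h1
    simpa [Equiv.permCongr_apply, pow_two] using h2
  haveI : Nontrivial Q := Fintype.one_lt_card_iff_nontrivial.1 (by omega)
  exact ⟨hQ, (Monoid.exponent_eq_prime_iff Nat.prime_two).2 fun g hg => orderOf_eq_prime (hsq g) hg⟩

theorem mulEquiv_transport_sign {Q C : Type*} [Group Q] [Group C] [Fintype Q] [DecidableEq Q]
    [Fintype C] [DecidableEq C] (ψ : Q ≃* C) (φ : C ≃* C)
    (h : Equiv.Perm.sign φ.toEquiv = -1) : ∃ φ' : Q ≃* Q, Equiv.Perm.sign φ'.toEquiv = -1 := by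
  refine ⟨(ψ.trans φ).trans ψ.symm, ?_⟩
  have : ((ψ.trans φ).trans ψ.symm).toEquiv = ψ.symm.toEquiv.permCongr φ.toEquiv := by
    ext x
    simp [Equiv.permCongr_apply]
  rw [this, Equiv.Perm.sign_permCongr, h]

theorem sign_inv_three :
    Equiv.Perm.sign (MulEquiv.inv (Multiplicative (ZMod 3))).toEquiv = -1 := by decide

/-- Squaring as an automorphism of the cyclic group of order five. -/
def sqAutFive : Multiplicative (ZMod 5) ≃* Multiplicative (ZMod 5) where
  toFun x := x * x
  invFun x := x * x * x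
  left_inv := by decide
  right_inv := by decide
  map_mul' := by decide

theorem sign_sqAutFive : Equiv.Perm.sign sqAutFive.toEquiv = -1 := by decide

theorem sign_swap_four : Equiv.Perm.sign
    (AddEquiv.toMultiplicative (AddEquiv.prodComm : ZMod 2 × ZMod 2 ≃+ ZMod 2 × ZMod 2)).toEquiv = -1 := by
  decide

/-- The regular groups occurring in a largest abelian subgroup have an odd automorphism. -/
theorem exists_odd_mulAut {Q : Type*} [Group Q] [Fintype Q] [DecidableEq Q]
    (hQ : Nat.card Q = 3 ∨ Nat.card Q = 4 ∨ Nat.card Q = 5)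
    (h : ∀ q : Q, Equiv.Perm.sign (Equiv.mulLeft q) = 1) :
    ∃ φ : Q ≃* Q, Equiv.Perm.sign φ.toEquiv = -1 := by
  rcases hQ with hQ | hQ | hQ
  · haveI : Fact (Nat.Prime 3) := ⟨by norm_num⟩
    exact mulEquiv_transport_sign (mulEquivOfPrimeCardEq (p := 3) (G' := Multiplicative (ZMod 3)) hQ (by simp))
      _ sign_inv_three
  · haveI := isKleinFour_of_even hQ h
    obtain ⟨ψ⟩ := IsKleinFour.nonempty_mulEquiv (G₁ := Q) (G₂ := Multiplicative (ZMod 2 × ZMod 2))
    exact mulEquiv_transport_sign ψ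
      _ sign_swap_four
  · haveI : Fact (Nat.Prime 5) := ⟨by norm_num⟩
    exact mulEquiv_transport_sign (mulEquivOfPrimeCardEq (p := 5) (G' := Multiplicative (ZMod 5)) hQ (by simp))
      _ sign_sqAutFive

variable {A B : Subgroup (Perm α)} [IsMulCommutative ↥A] [IsMulCommutative ↥B]

/-- The point map attached to a matching of the orbit groups of `A` and `B`. -/
noncomputable def matchPerm (π : Orb A ≃ Orb B) (f : ∀ o, OrbGrp A o ≃* OrbGrp B (π o)) : Perm α :=
  (orbEquiv A).symm.trans ((Equiv.sigmaCongr π fun o => (f o).toEquiv).trans (orbEquiv B))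

theorem matchPerm_orbPt (π : Orb A ≃ Orb B) (f : ∀ o, OrbGrp A o ≃* OrbGrp B (π o)) (o : Orb A)
    (q : OrbGrp A o) : matchPerm π f (orbPt A o q) = orbPt B (π o) (f o q) := by
  show matchPerm π f (orbEquiv A ⟨o, q⟩) = _
  simp only [matchPerm, Equiv.trans_apply, Equiv.symm_apply_apply]
  rfl

theorem matchPerm_conj_mem (hB : IsFull B) (π : Orb A ≃ Orb B)
    (f : ∀ o, OrbGrp A o ≃* OrbGrp B (π o)) (a : ↥A) :
    matchPerm π f * (a : Perm α) * (matchPerm π f)⁻¹ ∈ B := by
  obtain ⟨b, hb⟩ := hB (π.piCongr (fun o => (f o).toEquiv) (orbHom A a))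
  have : matchPerm π f * (a : Perm α) = (b : Perm α) * matchPerm π f := by
    ext x
    obtain ⟨⟨o, q⟩, rfl⟩ := (orbEquiv A).surjective x
    show matchPerm π f ((a : Perm α) (orbPt A o q)) = (b : Perm α) (matchPerm π f (orbPt A o q))
    rw [smul_orbPt, matchPerm_orbPt, matchPerm_orbPt, smul_orbPt, hb, map_mul]
    congr 2
    exact (Equiv.piCongr_apply_apply π (fun o => (f o).toEquiv) _ o).symm
  rw [this, mul_inv_cancel_right]
  exact b.2

/-- Two largest abelian subgroups of an alternating group are conjugate in it. -/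
theorem exists_alternating_conj (hn : 3 ≤ Fintype.card α) (hA : A ≤ alternatingGroup α)
    (hB : B ≤ alternatingGroup α) (hAc : Nat.card ↥A = maxProdNoTwo (Fintype.card α))
    (hBc : Nat.card ↥B = maxProdNoTwo (Fintype.card α)) :
    ∃ g ∈ alternatingGroup α, ∀ a ∈ A, g * a * g⁻¹ ∈ B := by
  classical
  obtain ⟨hfA, hsA⟩ := (card_le_maxProdNoTwo A hA hn).2 hAc
  obtain ⟨hfB, hsB⟩ := (card_le_maxProdNoTwo B hB hn).2 hBc
  haveI := Fintype.ofFinite (Orb A)
  haveI := Fintype.ofFinite (Orb B)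
  have hfib : ∀ m, Nonempty ({o : Orb A // Nat.card (OrbGrp A o) = m} ≃
      {o : Orb B // Nat.card (OrbGrp B o) = m}) := by
    intro m
    refine ⟨Fintype.equivOfCardEq ?_⟩
    have h := congrArg (Multiset.count m) (hsA.trans hsB.symm)
    rw [orbitSizes, orbitSizes, Multiset.count_map, Multiset.count_map] at h
    rw [Fintype.card_subtype, Fintype.card_subtype, Finset.card_def, Finset.card_def,
      Finset.filter_val, Finset.filter_val]
    simp only [eq_comm (a := m)] at h
    convert h using 6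
  let π : Orb A ≃ Orb B := Equiv.ofFiberEquiv (f := fun o : Orb A => Nat.card (OrbGrp A o)) (g := fun o : Orb B => Nat.card (OrbGrp B o)) fun m => (hfib m).some
  have hπ : ∀ o, Nat.card (OrbGrp B (π o)) = Nat.card (OrbGrp A o) :=
    Equiv.ofFiberEquiv_map (f := fun o : Orb A => Nat.card (OrbGrp A o)) (g := fun o : Orb B => Nat.card (OrbGrp B o)) _
  have hsize : ∀ o : Orb A, Nat.card (OrbGrp A o) = 3 ∨ Nat.card (OrbGrp A o) = 4 ∨
      Nat.card (OrbGrp A o) = 5 :=
    fun o => bestParts_part _ hn _ (hsA ▸ mem_orbitSizes.2 ⟨o, rfl⟩)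
  have hiso : ∀ o, Nonempty (OrbGrp A o ≃* OrbGrp B (π o)) := by
    intro o
    haveI := Fintype.ofFinite (OrbGrp A o)
    haveI := Fintype.ofFinite (OrbGrp B (π o))
    rcases hsize o with h | h | h
    · haveI : Fact (Nat.Prime 3) := ⟨by norm_num⟩
      exact ⟨mulEquivOfPrimeCardEq (p := 3) h ((hπ o).trans h)⟩
    · haveI := isKleinFour_of_even h (sign_mulLeft_orbGrp hfA hA o)
      haveI := isKleinFour_of_even ((hπ o).trans h) (sign_mulLeft_orbGrp hfB hB (π o))
      exact IsKleinFour.nonempty_mulEquiv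
    · haveI : Fact (Nat.Prime 5) := ⟨by norm_num⟩
      exact ⟨mulEquivOfPrimeCardEq (p := 5) h ((hπ o).trans h)⟩
  let f := fun o => Classical.choice (hiso o)
  rcases Int.units_eq_one_or (Equiv.Perm.sign (matchPerm π f)) with hs | hs
  · exact ⟨_, Equiv.Perm.mem_alternatingGroup.2 hs, fun a ha => matchPerm_conj_mem hfB π f ⟨a, ha⟩⟩
  haveI : Nonempty α := Fintype.card_pos_iff.1 (by omega)
  let o₀ : Orb A := Quotient.mk'' (Classical.arbitrary α)
  haveI := Fintype.ofFinite (OrbGrp A o₀)
  obtain ⟨φ, hφ⟩ := exists_odd_mulAut (hsize o₀) (sign_mulLeft_orbGrp hfA hA o₀)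
  let f' := Function.update f o₀ (φ.trans (f o₀))
  have hg : matchPerm π f' = matchPerm π f * Equiv.Perm.viaEmbedding φ.toEquiv (orbPt A o₀) := by
    ext x
    obtain ⟨⟨o, q⟩, rfl⟩ := (orbEquiv A).surjective x
    show matchPerm π f' (orbPt A o q) =
      matchPerm π f (Equiv.Perm.viaEmbedding φ.toEquiv (orbPt A o₀) (orbPt A o q))
    by_cases ho : o = o₀
    · subst ho
      rw [Equiv.Perm.viaEmbedding_apply, matchPerm_orbPt, matchPerm_orbPt]
      simp [f']
    · rw [Equiv.Perm.viaEmbedding_apply_of_notMem, matchPerm_orbPt, matchPerm_orbPt]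
      · simp [f', Function.update_of_ne ho]
      · rintro ⟨r, hr⟩
        have := (orbEquiv A).injective (a₁ := ⟨o₀, r⟩) (a₂ := ⟨o, q⟩) hr
        exact ho (Sigma.mk.inj this).1.symm
  refine ⟨matchPerm π f', Equiv.Perm.mem_alternatingGroup.2 ?_,
    fun a ha => matchPerm_conj_mem hfB π f' ⟨a, ha⟩⟩
  rw [hg, map_mul, hs, sign_viaEmbedding, hφ]
  rfl

end Cfsg.Agent.H63
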