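import Mathlib
import Cfsg.Agent.H1.Transitive

/-!
# A subgroup of order 2520 of `GL₄(2)` is two-transitive on the non-zero vectors
-/

set_option linter.unusedSectionVars false

namespace Cfsg.Agent.H63

open Matrix MulAction

theorem one_add_one_zmod_two : (1 : ZMod 2) + 1 = 0 := by decide

theorem one_zero_five_zmod_two : ((105 : ℕ) : ZMod 2) ≠ 0 := by decide

variable {F : Type*} [Field F] [Fintype F]

theorem gl_smul_eq_mulVec (g : GL (Fin 4) F) (v : Fin 4 → F) :
    g • v = (g : Matrix (Fin 4) (Fin 4) F) *ᵥ v := rfl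

theorem gl_smul_ne_zero {g : GL (Fin 4) F} {v : Fin 4 → F} (hv : v ≠ 0) : g • v ≠ 0 := by
  intro h
  apply hv
  have := congrArg (fun x => g⁻¹ • x) h
  simpa [gl_smul_eq_mulVec] using (inv_smul_smul g v).symm.trans this

theorem exists_gl_smul_eq {v w : Fin 4 → F} (hv : v ≠ 0) (hw : w ≠ 0) :
    ∃ g : GL (Fin 4) F, g • v = w := by
  obtain ⟨g, hg⟩ := H1.exists_SL_smul_eq hv hw
  exact ⟨(g : GL (Fin 4) F), hg⟩

theorem card_gl_stabilizer (hF : Fintype.card F = 2) {v : Fin 4 → F} (hv : v ≠ 0) :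
    Nat.card ↥(stabilizer (GL (Fin 4) F) v) = 1344 := by
  classical
  have horb : orbit (GL (Fin 4) F) v = {w | w ≠ 0} := by
    ext w
    exact ⟨fun ⟨g, hg⟩ => hg ▸ gl_smul_ne_zero hv, fun hw => exists_gl_smul_eq hv hw⟩
  have h1 := Subgroup.index_mul_card (stabilizer (GL (Fin 4) F) v)
  rw [MulAction.index_stabilizer, horb, Matrix.card_GL_field, Fin.prod_univ_four, hF] at h1
  have h2 : Set.ncard {w : Fin 4 → F | w ≠ 0} = 15 := by
    rw [show {w : Fin 4 → F | w ≠ 0} = ({0} : Set (Fin 4 → F))ᶜ from rfl, Set.ncard_compl]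
    simp [hF]
  rw [h2] at h1
  generalize Nat.card ↥(stabilizer (GL (Fin 4) F) v) = c at h1 ⊢
  norm_num at h1
  omega

/-- The stabiliser of a vector in a subgroup of order 2520. -/
abbrev vecStab (H : Subgroup (GL (Fin 4) F)) (v : Fin 4 → F) : Subgroup ↥H :=
  stabilizer ↥H v

theorem card_vecStab (hF : Fintype.card F = 2) (H : Subgroup (GL (Fin 4) F)) (hH : Nat.card ↥H = 2520)
    {v : Fin 4 → F} (hv : v ≠ 0) :
    Nat.card ↥(vecStab H v) = 168 ∧ orbit ↥H v = {w | w ≠ 0} := by
  classical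
  have hle : orbit ↥H v ⊆ {w | w ≠ 0} := by
    rintro _ ⟨g, rfl⟩
    exact gl_smul_ne_zero hv
  have h15 : Set.ncard {w : Fin 4 → F | w ≠ 0} = 15 := by
    rw [show {w : Fin 4 → F | w ≠ 0} = ({0} : Set (Fin 4 → F))ᶜ from rfl, Set.ncard_compl]
    simp [hF]
  have h1 := Subgroup.index_mul_card (vecStab H v)
  rw [MulAction.index_stabilizer, hH] at h1
  have h2 := Set.ncard_le_ncard hle
  rw [h15] at h2
  have h3 : Nat.card ↥(vecStab H v) ∣ 1344 := by
    rw [← card_gl_stabilizer hF hv]
    refine Subgroup.card_dvd_of_injective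
      ((H.subtype.comp (vecStab H v).subtype).codRestrict (stabilizer (GL (Fin 4) F) v)
        fun g => g.2) ?_
    intro a b hab
    exact Subtype.ext (Subtype.ext (congrArg (fun x : ↥(stabilizer (GL (Fin 4) F) v) => (x : GL (Fin 4) F)) hab))
  have h4 : Nat.card ↥(vecStab H v) ∣ 2520 := Dvd.intro_left _ h1
  have h5 : Nat.card ↥(vecStab H v) ≤ 168 := Nat.le_of_dvd (by norm_num)
    ((Nat.dvd_gcd h3 h4).trans (by norm_num))
  have h6 : (orbit ↥H v).ncard = 15 := by nlinarith
  refine ⟨by rw [h6] at h1; omega, Set.eq_of_subset_of_ncard_le hle (by rw [h6, h15])⟩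

theorem seven_dvd_orbit (hF : Fintype.card F = 2) (H : Subgroup (GL (Fin 4) F)) (hH : Nat.card ↥H = 2520)
    {v w : Fin 4 → F} (hv : v ≠ 0) (hw : w ≠ 0) (hvw : w ≠ v) :
    7 ∣ (orbit ↥(vecStab H v) w).ncard := by
  classical
  haveI : Fact (Nat.Prime 7) := ⟨by norm_num⟩
  set K := vecStab H v
  obtain ⟨g, hg⟩ := exists_prime_orderOf_dvd_card' (G := ↥K) 7
    (by rw [(card_vecStab hF H hH hv).1]; norm_num)
  -- every stabiliser of `w` avoids elements of order seven
  have hno : ∀ k : ↥K, orderOf k = 7 → k • w ≠ w := by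
    intro k hk hfix
    let P := Subgroup.zpowers k
    have hP : IsPGroup 7 ↥P := IsPGroup.of_card (n := 1) (by rw [Nat.card_zpowers, hk, pow_one])
    let S : AddSubgroup (Fin 4 → F) :=
      { carrier := {x | ((k : ↥H) : GL (Fin 4) F) • x = x}
        zero_mem' := Matrix.mulVec_zero _
        add_mem' := fun {a b} ha hb => by
          show ((k : ↥H) : GL (Fin 4) F) • (a + b) = a + b
          rw [smul_add, ha, hb]
        neg_mem' := fun {a} ha => by
          show ((k : ↥H) : GL (Fin 4) F) • (-a) = -a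
          rw [smul_neg, ha] }
    have hfixed : fixedPoints ↥P (Fin 4 → F) = (S : Set (Fin 4 → F)) := by
      ext x
      refine ⟨fun h => h ⟨k, Subgroup.mem_zpowers k⟩, fun h p => ?_⟩
      obtain ⟨j, hj⟩ := Subgroup.mem_zpowers_iff.1 p.2
      show (p : ↥K) • x = x
      rw [← hj]
      exact zpow_smul_eq_iff_minimalPeriod_dvd.2 (by
        have : Function.minimalPeriod (k • ·) x = 1 :=
          Function.minimalPeriod_eq_one_iff_isFixedPt.2 h
        simp [this])
    have hmod := hP.card_modEq_card_fixedPoints (Fin 4 → F)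
    rw [hfixed] at hmod
    have h16 : Nat.card (Fin 4 → F) = 16 := by simp [hF]
    rw [h16] at hmod
    have hdvd : Nat.card ↥S ∣ 16 := h16 ▸ S.card_addSubgroup_dvd_card
    have h3 : 3 ≤ Nat.card ↥S := by
      have : ({0, v, w} : Finset (Fin 4 → F)).card = 3 := by
        rw [Finset.card_insert_of_notMem (by simp [Ne.symm hv, Ne.symm hw]), Finset.card_pair (Ne.symm hvw)]
      rw [← this, ← Nat.card_eq_finsetCard]
      refine Nat.card_le_card_of_injective (fun x => ⟨x.1, ?_⟩) (fun a b hab => ?_)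
      · have hx := x.2
        simp only [Finset.mem_insert, Finset.mem_singleton] at hx
        rcases hx with h | h | h <;> rw [h]
        · exact S.zero_mem
        · exact k.2
        · exact hfix
      · exact Subtype.ext (congrArg Subtype.val (a₁ := (⟨a.1, _⟩ : ↥S)) (a₂ := ⟨b.1, _⟩) hab)
    have hS : Nat.card ↥S = 16 := by
      have : (Nat.card (S : Set (Fin 4 → F))) = Nat.card ↥S := rfl
      rw [this, Nat.ModEq] at hmod
      obtain ⟨i, hi, hci⟩ := (Nat.dvd_prime_pow Nat.prime_two (m := 4)).1 (by simpa using hdvd)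
      interval_cases i <;> simp_all
    have htop : ∀ x, x ∈ S := fun x => by
      rw [AddSubgroup.eq_top_of_card_eq S (hS.trans h16.symm)]; trivial
    have : ((k : ↥H) : GL (Fin 4) F) = 1 := by
      refine Units.ext (Matrix.ext fun i j => ?_)
      have h := congrFun (htop (Pi.single j 1)) i
      rw [gl_smul_eq_mulVec, Matrix.mulVec_single_one, Matrix.col_apply] at h
      rw [h, Units.val_one, Matrix.one_apply, Pi.single_apply]
    have h1 : k = 1 := Subtype.ext (Subtype.ext this)
    rw [h1, orderOf_one] at hk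
    omega
  rw [← MulAction.index_stabilizer]
  have hmul := Subgroup.index_mul_card (stabilizer ↥K w)
  have hndvd : ¬ 7 ∣ Nat.card ↥(stabilizer ↥K w) := by
    intro hd
    obtain ⟨k, hk⟩ := exists_prime_orderOf_dvd_card' (G := ↥(stabilizer ↥K w)) 7 hd
    exact hno k (by rw [← hk, Subgroup.orderOf_coe]) k.2
  have : 7 ∣ (stabilizer ↥K w).index * Nat.card ↥(stabilizer ↥K w) := by
    rw [hmul, (card_vecStab hF H hH hv).1]; norm_num
  exact ((Nat.Prime.dvd_mul (by norm_num)).1 this).resolve_right hndvd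

/-- A subgroup of order 2520 of `GL₄(2)` is two-transitive on the non-zero vectors. -/
theorem two_transitive_of_card (hF : Fintype.card F = 2) (H : Subgroup (GL (Fin 4) F))
    (hH : Nat.card ↥H = 2520) (v w v' w' : Fin 4 → F) (hv : v ≠ 0) (hw : w ≠ 0) (hvw : v ≠ w)
    (hv' : v' ≠ 0) (hw' : w' ≠ 0) (hvw' : v' ≠ w') :
    ∃ g ∈ H, (g : Matrix (Fin 4) (Fin 4) F) *ᵥ v = v' ∧ (g : Matrix (Fin 4) (Fin 4) F) *ᵥ w = w' := by
  classical
  -- some non-zero vector is moved by an involution
  haveI : Fact (Nat.Prime 2) := ⟨Nat.prime_two⟩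
  obtain ⟨t, ht⟩ := exists_prime_orderOf_dvd_card' (G := ↥H) 2 (by rw [hH]; norm_num)
  obtain ⟨x, hx⟩ : ∃ x : Fin 4 → F, t • x ≠ x := by
    by_contra hcon
    push Not at hcon
    have : (t : GL (Fin 4) F) = 1 := by
      refine Units.ext (Matrix.ext fun i j => ?_)
      have h := congrFun (hcon (Pi.single j 1)) i
      rw [Subgroup.smul_def, gl_smul_eq_mulVec, Matrix.mulVec_single_one, Matrix.col_apply] at h
      rw [h, Units.val_one, Matrix.one_apply, Pi.single_apply]
    rw [show t = 1 from Subtype.ext this, orderOf_one] at ht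
    omega
  have hx0 : x ≠ 0 := fun h => hx (by subst h; exact Matrix.mulVec_zero _)
  have htt : t • t • x = x := by
    have : t * t = 1 := by rw [← pow_two, ← ht]; exact pow_orderOf_eq_one t
    rw [← mul_smul, this, one_smul]
  -- the stabiliser of `x` is transitive on the other fourteen
  have h14 : orbit ↥(vecStab H x) (t • x) = {y | y ≠ 0 ∧ y ≠ x} := by
    have hsub : orbit ↥(vecStab H x) (t • x) ⊆ {y | y ≠ 0 ∧ y ≠ x} := by
      rintro _ ⟨k, rfl⟩
      refine ⟨gl_smul_ne_zero (gl_smul_ne_zero hx0), fun h => hx ?_⟩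
      have hk : (k : ↥H) • x = x := k.2
      exact smul_left_cancel (k : ↥H) (h.trans hk.symm)
    have hcard : Set.ncard {y : Fin 4 → F | y ≠ 0 ∧ y ≠ x} = 14 := by
      rw [show {y : Fin 4 → F | y ≠ 0 ∧ y ≠ x} = ({0, x} : Set (Fin 4 → F))ᶜ by
        ext y; simp [not_or], Set.ncard_compl, Set.ncard_pair (Ne.symm hx0)]
      simp [hF]
    obtain ⟨c, hc⟩ := seven_dvd_orbit hF H hH hx0 (gl_smul_ne_zero (g := (t : GL (Fin 4) F)) hx0) hx
    have hle := Set.ncard_le_ncard hsub
    rw [hcard] at hle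
    have hpos : 0 < (orbit ↥(vecStab H x) (t • x)).ncard :=
      (Set.ncard_pos (Set.toFinite _)).2 (MulAction.nonempty_orbit _)
    refine Set.eq_of_subset_of_ncard_le hsub ?_
    rw [hcard]
    by_contra hlt
    have h7 : (orbit ↥(vecStab H x) (t • x)).ncard = 7 := by
      change (orbit ↥(vecStab H x) (t • x)).ncard = 7 * c at hc
      omega
    -- the orbital of `(x, t x)` has odd size but a fixed-point-free involution
    let p : (Fin 4 → F) × (Fin 4 → F) := (x, t • x)
    have hRcard : (orbit ↥H p).ncard = 105 := by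
      have hst : stabilizer ↥H p = (stabilizer ↥(vecStab H x) (t • x)).map (vecStab H x).subtype := by
        ext g
        rw [mem_stabilizer_iff, Subgroup.mem_map]
        constructor
        · intro hg
          exact ⟨⟨g, congrArg Prod.fst hg⟩, congrArg Prod.snd hg, rfl⟩
        · rintro ⟨k, hk, rfl⟩
          exact Prod.ext k.2 hk
      have e1 := Subgroup.index_mul_card (stabilizer ↥(vecStab H x) (t • x))
      rw [MulAction.index_stabilizer, (card_vecStab hF H hH hx0).1, h7] at e1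
      have e2 := Subgroup.index_mul_card (stabilizer ↥H p)
      rw [MulAction.index_stabilizer, hH, hst, Subgroup.card_subtype] at e2
      have e3 : Nat.card ↥(stabilizer ↥(vecStab H x) (t • x)) = 24 := by omega
      rw [e3] at e2
      omega
    let R : Finset ((Fin 4 → F) × (Fin 4 → F)) := (orbit ↥H p).toFinset
    have hsum : (∑ _q ∈ R, (1 : ZMod 2)) = 0 := by
      refine Finset.sum_involution (fun q _ => Prod.swap q) (fun q _ => one_add_one_zmod_two) (fun q hq _ => ?_)
        (fun q hq => ?_) (fun q _ => Prod.swap_swap q)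
      · obtain ⟨g, rfl⟩ := Set.mem_toFinset.1 hq
        intro h
        exact hx (smul_left_cancel g (congrArg Prod.fst h))
      · obtain ⟨g, rfl⟩ := Set.mem_toFinset.1 hq
        refine Set.mem_toFinset.2 ⟨g * t, ?_⟩
        show (g * t) • p = Prod.swap (g • p)
        rw [mul_smul]
        exact Prod.ext rfl (congrArg (g • ·) htt)
    rw [Finset.sum_const, nsmul_one, ← Set.ncard_eq_toFinset_card', hRcard] at hsum
    exact one_zero_five_zmod_two hsum
  have horb := (card_vecStab hF H hH hx0).2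
  have key : ∀ a b : Fin 4 → F, a ≠ 0 → b ≠ 0 → a ≠ b → ∃ g : ↥H, g • x = a ∧ g • (t • x) = b := by
    intro a b ha hb hab
    obtain ⟨g, hg⟩ : a ∈ orbit ↥H x := by rw [horb]; exact ha
    have hg' : g • x = a := hg
    have hb' : g⁻¹ • b ∈ orbit ↥(vecStab H x) (t • x) := by
      rw [h14]
      refine ⟨gl_smul_ne_zero hb, fun h => hab ?_⟩
      rw [inv_smul_eq_iff] at h
      rw [h, hg']
    obtain ⟨k, hk⟩ := hb'
    have hk1 : (k : ↥H) • x = x := k.2
    have hk2 : (k : ↥H) • (t • x) = g⁻¹ • b := hk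
    exact ⟨g * (k : ↥H), by rw [mul_smul, hk1, hg'], by rw [mul_smul, hk2, smul_inv_smul]⟩
  obtain ⟨g, hg1, hg2⟩ := key v w hv hw hvw
  obtain ⟨g', hg1', hg2'⟩ := key v' w' hv' hw' hvw'
  refine ⟨((g' * g⁻¹ : ↥H) : GL (Fin 4) F), (g' * g⁻¹).2, ?_, ?_⟩
  · show (g' * g⁻¹) • v = v'
    rw [mul_smul, ← hg1, inv_smul_smul, hg1']
  · show (g' * g⁻¹) • w = w'
    rw [mul_smul, ← hg2, inv_smul_smul, hg2']

end Cfsg.Agent.H63
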